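import Cfsg.Agent.H891.DG.Defs
import Cfsg.Agent.H490.Der3

/-!
# `Coh T` for a simple group generated by an involution and another element (helper555)
-/

set_option autoImplicit false

namespace Cfsg.Agent.H555.DG.CohInv

open Cfsg.Agent.H440.TwoGen Cfsg.Agent.H891.Gen Cfsg.Agent.H891.DG Cfsg.Agent.H490.Der Cfsg.Agent.H490 Subgroup

universe u

/-- the kernel of a nontrivial action of a simple group -/
theorem faithful {T : Type u} [Group T] [IsSimpleGroup T] {V : Type u} [AddCommGroup V] [DistribMulAction T V]
    (hne : ∃ (g : T) (v : V), g • v ≠ v) {x : T} (hx : ∀ v : V, x • v = v) : x = 1 := by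
  let K : Subgroup T :=
    { carrier := {g | ∀ v : V, g • v = v}
      one_mem' := fun v => one_smul _ v
      mul_mem' := fun {a b} ha hb v => by rw [mul_smul, hb v, ha v]
      inv_mem' := fun {a} ha v => by
        have h := ha (a⁻¹ • v)
        rw [smul_inv_smul] at h
        exact h.symm }
  have hK : K.Normal := ⟨fun n hn g v => by
    have h : n • (g⁻¹ • v) = g⁻¹ • v := hn _
    rw [mul_smul, mul_smul, h, smul_inv_smul]⟩
  rcases hK.eq_bot_or_eq_top with h | h
  · have : x ∈ K := hx
    rw [h] at this
    exact Subgroup.mem_bot.1 this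
  · obtain ⟨g, v, hgv⟩ := hne
    have : g ∈ K := by rw [h]; trivial
    exact absurd (this v) hgv

/-- a simple group generated by an involution and another element -/
theorem coh_inv {T : Type u} [Group T] [Finite T] [IsSimpleGroup T] (hna : ¬ IsMulCommutative T) {c b : T}
    (hc : c ^ 2 = 1) (hc1 : c ≠ 1) (h : closure ({c, b} : Set T) = ⊤) : Coh T := by
  intro p hp V _ _ _ hV hirr hne
  have hcc : c * c = 1 := by rw [← pow_two, hc]
  by_cases hfix : ∃ v : V, v ≠ 0 ∧ c • v = v
  · by_cases hp2 : p = 2
    · subst hp2
      obtain ⟨v, hv⟩ : ∃ v : V, c • v ≠ v := by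
        by_contra hcon
        push Not at hcon
        exact hc1 (faithful hne hcon)
      exact small_of_involution hV h hc hv
    · obtain ⟨v, hv0, hv⟩ := hfix
      exact small_of_fixed hp hV h hc (fun hd => hp2 ((Nat.prime_dvd_prime_iff_eq hp Nat.prime_two).1 hd)) hv0 hv
  · exfalso
    have hneg : ∀ v : V, c • v = -v := by
      intro v
      by_contra hcon
      apply hfix
      refine ⟨v + c • v, fun h0 => hcon ?_, ?_⟩
      · rw [eq_neg_iff_add_eq_zero, add_comm]; exact h0
      · rw [smul_add, ← mul_smul, hcc, one_smul, add_comm]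
    have hcen : ∀ x : T, x * c = c * x := by
      intro x
      have h1 : x * c * x⁻¹ * c⁻¹ = 1 := by
        apply faithful hne
        intro v
        have hci : c⁻¹ • v = -v := by
          rw [inv_smul_eq_iff, smul_neg, hneg, neg_neg]
        rw [mul_smul, hci, mul_smul, mul_smul, hneg, smul_neg, smul_neg, smul_neg, neg_neg, smul_inv_smul]
      have h2 : x * c = c * x := by
        have h3 := mul_inv_eq_one.1 h1
        rw [mul_inv_eq_iff_eq_mul] at h3
        exact h3
      exact h2
    have hmem : c ∈ Subgroup.center T := Subgroup.mem_center_iff.2 hcen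
    rcases (inferInstance : (Subgroup.center T).Normal).eq_bot_or_eq_top with hb | ht
    · rw [hb] at hmem
      exact hc1 (Subgroup.mem_bot.1 hmem)
    · apply hna
      refine ⟨⟨fun a d => ?_⟩⟩
      have : d ∈ Subgroup.center T := by rw [ht]; trivial
      exact Subgroup.mem_center_iff.1 this a

end Cfsg.Agent.H555.DG.CohInv
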