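import Cfsg.Agent.H555.DG.TitsGen
import Cfsg.Agent.H555.DG.CohInv
import Cfsg.Agent.Mrg.Omega.TitsIso.Model

/-!
# S4180, task K10j: `Coh` for the Tits group (helper555)
-/

set_option autoImplicit false

namespace Cfsg.Agent.H555.DG.TitsCoh

open Cfsg.Agent.H891.DG

universe u

/-- **`Coh` for the Tits group** (the field `Rows.tits` of `Rows Coh`). -/
theorem coh_tits {T : Type u} [Group T] [Finite T] [IsSimpleGroup T] (h : Cfsg.Lie.IsoTits T) : Coh T := by
  have hna : ¬ IsMulCommutative T := by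
    intro hc
    obtain ⟨e⟩ := h
    apply (Cfsg.Agent.Omega.TitsIso.TitsSide.facts).2.1
    refine ⟨⟨fun a b => ?_⟩⟩
    have h1 : e.symm a * e.symm b = e.symm b * e.symm a := hc.1.1 _ _
    rw [← map_mul, ← map_mul] at h1
    exact e.symm.injective h1
  obtain ⟨c, b, hc, hc1, hcb⟩ := TitsGen.gen_tits h hna
  exact CohInv.coh_inv hna hc hc1 hcb

end Cfsg.Agent.H555.DG.TitsCoh
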