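import Cfsg.Agent.H440.TwoGen.Tits

/-!
# The Tits group is generated by an involution and another element (helper555)

`c = Z₄` and `b = Z₆ Z₁ Z₂ Z₀` (of order `10`) generate the eight central involutions of an apartment. The words are
checked in the 52-dimensional representation.
-/

set_option autoImplicit false
set_option maxRecDepth 100000

namespace Cfsg.Agent.H555.DG.TitsGen

open Cfsg.Agent.ChevalleyStructure.Tits.Pack Cfsg.Agent.ChevalleyStructure.Tits.Data
  Cfsg.Agent.ChevalleyStructure.Tits.Sat Cfsg.Agent.ChevalleyStructure.Tits.Final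
  Cfsg.Agent.ChevalleyStructure.Tits.Mat Cfsg.Agent.ChevalleyStructure.Tits.Order
  Cfsg.Agent.ChevalleyStructure.Tits.Main Cfsg.Agent.Omega.TitsIso.TitsSideRel
  Cfsg.Agent.Omega.TitsIso.TitsSide Cfsg.Agent.H440.TwoGen

/-- `c = Z₄` -/
def c : List (ZMod 8) := [4]
/-- `b = Z₆ Z₁ Z₂ Z₀` -/
def b : List (ZMod 8) := [6, 1, 2, 0]
/-- `b⁻¹` -/
def b' : List (ZMod 8) := [0, 2, 1, 6]

/-- words of the eight involutions in `c, b` -/
def wl : List (List (List (ZMod 8))) := [
  [b, b, b, b, b],
  [b, b, b, b, b, c, b', c, b, c, b', c, b, c],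
  [b', c, b, c, b, c, b', b', c, b, b, c, b', b', c, b, c, b, c],
  [b', c, b, c, b, b, b, b, b, c, b', c, b, c],
  [c],
  [b, c, b, c, b, c, b, b, c, b, c, b, c, b],
  [b, b, c, b', b', c, b, b, c, b', b', c, b, b, c],
  [b, b, b, c, b', c, b, c, b', c, b, c, b, b]]
/-- word of `Z i` -/
def w (i : ZMod 8) : List (List (ZMod 8)) := wl.getD i.val []

theorem w_mem : ∀ i : ZMod 8, ∀ l ∈ w i, l ∈ [c, b, b'] := by decide

theorem chk_w : ∀ i : ZMod 8, chk (zz [i], zz (w i).flatten) = true := by decide +kernel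

theorem chk_b : chk (zz (b ++ b'), zz []) = true := by decide +kernel
theorem chk_c : chk (zz (c ++ c), zz []) = true := by decide +kernel

/-- abstract form -/
theorem gen_abs {M : Type*} [Group M] (Z : ZMod 8 → M)
    (rel : ∀ l m : List (ZMod 8), chk (zz l, zz m) = true → (l.map Z).prod = (m.map Z).prod)
    (hZ : Subgroup.closure (Set.range Z) = ⊤) :
    ∃ x y : M, x ^ 2 = 1 ∧ Subgroup.closure ({x, y} : Set M) = ⊤ := by
  refine ⟨(c.map Z).prod, (b.map Z).prod, ?_, ?_⟩
  · have h1 := rel _ _ chk_c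
    rw [List.map_append, List.prod_append, List.map_nil, List.prod_nil] at h1
    rw [pow_two, h1]
  set N := Subgroup.closure ({(c.map Z).prod, (b.map Z).prod} : Set M) with hN
  have hc : (c.map Z).prod ∈ N := Subgroup.subset_closure (Or.inl rfl)
  have hb : (b.map Z).prod ∈ N := Subgroup.subset_closure (Or.inr rfl)
  have hinv : ∀ l m : List (ZMod 8), chk (zz (l ++ m), zz []) = true → (l.map Z).prod ∈ N →
      (m.map Z).prod ∈ N := by
    intro l m h hl
    have h1 := rel _ _ h
    rw [List.map_append, List.prod_append, List.map_nil, List.prod_nil] at h1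
    rw [← inv_eq_of_mul_eq_one_right h1]
    exact N.inv_mem hl
  have hb' := hinv b b' chk_b hb
  have hall : ∀ l ∈ [c, b, b'], (l.map Z).prod ∈ N := by
    intro l hl
    simp only [List.mem_cons, List.not_mem_nil, or_false] at hl
    rcases hl with rfl | rfl | rfl
    · exact hc
    · exact hb
    · exact hb'
  have hflat : ∀ ls : List (List (ZMod 8)), (∀ l ∈ ls, l ∈ [c, b, b']) → (ls.flatten.map Z).prod ∈ N := by
    intro ls
    induction ls with
    | nil => intro _; exact N.one_mem
    | cons l ls ih =>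
      intro h
      rw [List.flatten_cons, List.map_append, List.prod_append]
      exact N.mul_mem (hall l (h l List.mem_cons_self)) (ih fun m hm => h m (List.mem_cons_of_mem _ hm))
  have hZN : ∀ i, Z i ∈ N := by
    intro i
    have h1 := rel _ _ (chk_w i)
    rw [List.map_singleton, List.prod_singleton] at h1
    rw [h1]
    exact hflat _ (w_mem i)
  rw [eq_top_iff, ← hZ, Subgroup.closure_le]
  rintro _ ⟨i, rfl⟩
  exact hZN i

theorem gen_model : ∃ x y : ↥(commutator ChevalleyStructure.Tits.Order.H0), x ^ 2 = 1 ∧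
    Subgroup.closure ({x, y} : Set _) = ⊤ :=
  gen_abs ZC (fun _ _ h => Cfsg.Agent.H440.TwoGen.Tits.rel h) closure_ZC

theorem gen_of_eq (K : Subgroup (GL I52 (ZMod 2))) (hK : K = ChevalleyStructure.Tits.Order.H0) :
    ∃ x y : ↥(commutator K), x ^ 2 = 1 ∧ Subgroup.closure ({x, y} : Set _) = ⊤ := by
  subst hK
  exact gen_model

theorem gen_titsGroup : ∃ x y : Cfsg.Lie.TitsGroup, x ^ 2 = 1 ∧ Subgroup.closure ({x, y} : Set _) = ⊤ :=
  gen_of_eq (Cfsg.Lie.twistedF4 (ZMod 2) 1) T0_eq_H0

/-- the Tits group is generated by an involution and another element -/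
theorem gen_tits {T : Type*} [Group T] (h : Cfsg.Lie.IsoTits T) (hna : ¬ IsMulCommutative T) :
    ∃ x y : T, x ^ 2 = 1 ∧ x ≠ 1 ∧ Subgroup.closure ({x, y} : Set T) = ⊤ := by
  obtain ⟨e⟩ := h
  obtain ⟨x, y, hx, hxy⟩ := gen_titsGroup
  have hg : Subgroup.closure ({e.symm x, e.symm y} : Set T) = ⊤ := by
    have h1 := congrArg (Subgroup.map (e.symm : Cfsg.Lie.TitsGroup →* T)) hxy
    rw [MonoidHom.map_closure, Set.image_pair, ← MonoidHom.range_eq_map,
      MonoidHom.range_eq_top.mpr e.symm.surjective] at h1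
    exact h1
  refine ⟨e.symm x, e.symm y, by rw [← map_pow, hx, map_one], ?_, hg⟩
  intro h1
  apply hna
  rw [h1] at hg
  have hcyc : IsCyclic T := by
    refine ⟨e.symm y, fun z => ?_⟩
    have hz : z ∈ Subgroup.closure ({1, e.symm y} : Set T) := by rw [hg]; trivial
    have : Subgroup.closure ({1, e.symm y} : Set T) ≤ Subgroup.zpowers (e.symm y) := by
      rw [Subgroup.closure_le]
      rintro s (rfl | rfl)
      · exact Subgroup.one_mem _
      · exact Subgroup.mem_zpowers _
    exact this hz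
  exact IsCyclic.isMulCommutative

end Cfsg.Agent.H555.DG.TitsGen
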